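import Cfsg.Agent.H3.S8h
import Cfsg.Prelude.Def_Local
/-! Fusion of the involution `t` in the 3-local identification of `Sym(8)`. -/
set_option maxRecDepth 100000
open Subgroup Equiv H3S
namespace H28.Fu
variable {G : Type*} [Group G] [Finite G] {φ : P →* G} {σ t : G} {ψ : Perm (Fin 6) →* G}

theorem ct2 {s : Perm (Fin 6)} (h : s * s = 1) (h1 : s ≠ 1) :
    ∃ n, s.cycleType = Multiset.replicate (n + 1) 2 ∧ s.support.card = (n + 1) * 2 := by
  have o : orderOf s = 2 := orderOf_eq_prime (by rw [sq, h]) h1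
  obtain ⟨n, hn⟩ := Perm.cycleType_prime_order (σ := s) (o ▸ Nat.prime_two)
  rw [o] at hn
  exact ⟨n, hn, by rw [← Perm.sum_cycleType, hn, Multiset.sum_replicate, smul_eq_mul]⟩
theorem cj {s s' : Perm (Fin 6)} (h : s * s = 1 ∧ s ≠ 1 ∧ s' * s' = 1 ∧ s' ≠ 1 ∧ s.support.card = s'.support.card)
    (ε : ℤˣ) : IsConj (ε, s) (ε, s') := by
  obtain ⟨n, a, b⟩ := ct2 h.1 h.2.1
  obtain ⟨m, c, d⟩ := ct2 h.2.2.1 h.2.2.2.1
  obtain rfl : n = m := by omega
  obtain ⟨u, hu⟩ := isConj_iff.1 (Perm.isConj_iff_cycleType_eq.2 (a.trans c.symm))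
  exact isConj_iff.2 ⟨(1, u), Prod.ext (by simp) hu⟩
omit [Finite G] in
theorem cardC {Q : Type*} [Group Q] {Ψ : Q →* G} (inj : Function.Injective Ψ) (a b : Q)
    (hb : ∀ g, g * Ψ b = Ψ b * g → g ∈ Ψ.range) :
    Nat.card ↥(centralizer {Ψ a} ⊓ centralizer {Ψ b} : Subgroup G) = Nat.card {q : Q // q * a = a * q ∧ q * b = b * q} := by
  refine (Nat.card_congr (Equiv.ofBijective (fun q : {q : Q // q * a = a * q ∧ q * b = b * q} =>
    (⟨Ψ q, mem_centralizer_singleton_iff.2 (by rw [← map_mul, q.2.1, map_mul]),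
      mem_centralizer_singleton_iff.2 (by rw [← map_mul, q.2.2, map_mul])⟩ :
        ↥(centralizer {Ψ a} ⊓ centralizer {Ψ b} : Subgroup G))) ⟨fun x y e => Subtype.ext (inj (congrArg Subtype.val e)),
      fun ⟨g, h1, h2⟩ => ?_⟩)).symm
  have h1 := mem_centralizer_singleton_iff.1 h1
  have h2 := mem_centralizer_singleton_iff.1 h2
  obtain ⟨q, rfl⟩ := hb g h2
  exact ⟨⟨q, inj (by rw [map_mul, map_mul, h1]), inj (by rw [map_mul, map_mul, h2])⟩, rfl⟩
theorem bad {Q : Type*} [Group Q] {Ψ : Q →* G} (inj : Function.Injective Ψ) (n27 : ¬ 27 ∣ Nat.card G)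
    (h9 : 9 ∣ Nat.card (centralizer ({t} : Set G))) (a b : Q) (hb : ∀ g, g * Ψ b = Ψ b * g → g ∈ Ψ.range)
    (h : b * a = a * b ∧ b ^ 3 = 1) (hn : ¬ 9 ∣ Nat.card {q : Q // q * a = a * q ∧ q * b = b * q}) :
    ¬ IsConj t (Ψ a) := fun c => by
  obtain ⟨u, hu⟩ := isConj_iff.1 c
  refine hn (cardC inj a b hb ▸ nine n27 (mem_centralizer_singleton_iff.2 (by rw [← map_mul, h.1, map_mul]))
    (by rw [← map_pow, h.2, map_one]) (h9.trans ?_))
  rw [← card_map_of_injective (f := (MulAut.conj u).toMonoidHom) (MulAut.conj u).injective]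
  refine card_dvd_of_le ?_
  rintro _ ⟨x, hx, rfl⟩
  have := mem_centralizer_singleton_iff.1 hx
  refine mem_centralizer_singleton_iff.2 ?_
  rw [← hu]
  simp only [MulEquiv.coe_toMonoidHom, MulAut.conj_apply, mul_assoc, inv_mul_cancel_left]
  rw [← mul_assoc x, this, mul_assoc]
theorem n1 : ¬ 9 ∣ Nat.card {q : P // q * (t0 * r1) = (t0 * r1) * q ∧ q * z0 = z0 * q} := by
  rw [Nat.card_eq_fintype_card]; decide +kernel
def y6 : ℤˣ × Perm (Fin 6) := (1, swap 0 1 * swap 1 2 * (swap 3 4 * swap 4 5))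
def e6 : Perm (Fin 6) := swap 0 3 * swap 1 4 * swap 2 5
theorem n2 : Nat.card {q : ℤˣ × Perm (Fin 6) // q * y6 = y6 * q ∧ q * y6 = y6 * q} = 36 := by
  rw [Nat.card_eq_fintype_card]; decide +kernel
theorem n3 : ¬ 9 ∣ Nat.card {q : ℤˣ × Perm (Fin 6) // q * (1, e6) = (1, e6) * q ∧ q * y6 = y6 * q} := by
  rw [Nat.card_eq_fintype_card]; decide +kernel
theorem n4 : ¬ 9 ∣ Nat.card {q : ℤˣ × Perm (Fin 6) // q * (-1, e6) = (-1, e6) * q ∧ q * y6 = y6 * q} := by
  rw [Nat.card_eq_fintype_card]; decide +kernel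
theorem l8 : ∀ s : Perm (Fin 6), s * swap 0 1 = swap 0 1 * s → s * swap 3 4 = swap 3 4 * s →
    s = 1 ∨ s = swap 0 1 ∨ s = swap 3 4 ∨ s = swap 0 1 * swap 3 4 ∨ s = swap 2 5 ∨ s = swap 0 1 * swap 2 5 ∨
      s = swap 3 4 * swap 2 5 ∨ s = swap 0 1 * swap 3 4 * swap 2 5 := by decide +kernel

theorem fu (h : Hy φ σ) (hc : σ * φ r0 * σ = φ r1) (p : Ps φ σ ψ) (g : G) (s : Perm (Fin 6))
    (e : g * φ t0 * g⁻¹ = φ t0 * ψ s) : s = 1 := by
  have tt : φ t0 * φ t0 = 1 := by rw [← map_mul, show t0 * t0 = 1 by decide, map_one]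
  have ct : ∀ s, ψ s * φ t0 = φ t0 * ψ s := fun s => (p.ct _).2 ⟨s, .inl rfl⟩
  let Ψ : ℤˣ × Perm (Fin 6) →* G := MonoidHom.mk' (fun x => (if x.1 = 1 then 1 else φ t0) * ψ x.2) (by
    rintro ⟨a, x⟩ ⟨b, y⟩
    rcases Int.units_eq_one_or a with rfl | rfl <;> rcases Int.units_eq_one_or b with rfl | rfl <;>
      simp [mul_assoc, ← mul_assoc (ψ x), ct, ← mul_assoc (φ t0) (φ t0), tt])
  have p1 : ∀ s, Ψ (1, s) = ψ s := fun s => by simp [Ψ]
  have m1 : ∀ s, Ψ (-1, s) = φ t0 * ψ s := fun s => by simp [Ψ]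
  have inj : Function.Injective Ψ := (injective_iff_map_eq_one _).2 fun ⟨a, x⟩ k => by
    rcases Int.units_eq_one_or a with rfl | rfl
    · rw [p1, map_eq_one_iff _ p.inj] at k; rw [k]; rfl
    · rw [m1, mul_eq_one_iff_eq_inv, ← map_inv] at k; exact (p.nt _ k.symm).elim
  have rg : ∀ g, g * φ t0 = φ t0 * g → g ∈ Ψ.range := fun g k => by
    obtain ⟨s, rfl | rfl⟩ := (p.ct g).1 k
    exacts [⟨_, p1 s⟩, ⟨_, m1 s⟩]
  have hT : Ψ (-1, 1) = φ t0 := by rw [m1, map_one, mul_one]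
  have hR : Ψ (1, swap 0 1) = φ r0 := (p1 _).trans p.r
  have hR' : Ψ (1, swap 3 4) = φ r1 := (p1 _).trans (p.r'.trans hc)
  have hy : Ψ y6 = φ z0 * φ z1 := by rw [y6, p1, map_mul, p.z, p.z']
  have h9 : 9 ∣ Nat.card (centralizer ({φ t0} : Set G)) := by
    refine Dvd.dvd.trans ?_ (card_dvd_of_le (H := ψ.range) ?_)
    · rw [← Nat.card_congr (MonoidHom.ofInjective p.inj).toEquiv, Nat.card_perm, Nat.card_fin]; decide
    · rintro _ ⟨s, rfl⟩; exact mem_centralizer_singleton_iff.2 (ct s)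
  have cy : ∀ g, g * Ψ y6 = Ψ y6 * g → g ∈ Ψ.range := fun g k => by
    have : (centralizer {y6}).map Ψ = centralizer {Ψ y6} := eq_of_le_of_card_ge
      (by rintro _ ⟨x, hx, rfl⟩
          exact mem_centralizer_singleton_iff.2 (by rw [← map_mul, mem_centralizer_singleton_iff.1 hx, map_mul]))
      (by rw [hy, h.cy, card_map_of_injective inj, ← n2]
          exact le_of_eq (Nat.card_congr (Equiv.subtypeEquivRight fun x => by
            rw [and_self, mem_centralizer_singleton_iff])))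
    exact map_le_range _ _ (this.ge (mem_centralizer_singleton_iff.2 k))
  have tr : ∀ {a b}, IsConj a b → ¬ IsConj (φ t0) (Ψ b) → ¬ IsConj (φ t0) (Ψ a) := fun k h1 h2 =>
    h1 (h2.trans (Ψ.map_isConj k))
  have b1 : ¬ IsConj (φ t0) (Ψ (-1, swap 3 4)) := by
    rw [m1, ← p1, hR', ← map_mul]
    exact bad h.inj h.n27 h9 _ z0 (fun g k => h.nz g (by rw [k, mul_inv_cancel_right]; exact mem_zpowers _))
      (by decide) n1
  have b2 := bad inj h.n27 h9 (1, e6) y6 cy (by decide) n3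
  have b3 := bad inj h.n27 h9 (-1, e6) y6 cy (by decide) n4
  let κ := MulAut.conj (φ v0)
  have kc : ∀ x, IsConj x (κ x) := fun x => isConj_iff.2 ⟨_, rfl⟩
  have kφ : ∀ a, κ (φ a) = φ (v0 * a * v0⁻¹) := fun a => by rw [map_mul, map_mul, map_inv]; rfl
  have kk : ∀ x, κ (κ x) = x := fun x => by
    rw [← MulAut.mul_apply, ← map_mul, ← map_mul, show v0 * v0 = 1 by decide, map_one, map_one]; rfl
  have kT : κ (Ψ (-1, 1)) = Ψ (1, swap 3 4) := by rw [hT, hR', kφ]; congr 1; decide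
  have kR' : κ (Ψ (1, swap 3 4)) = Ψ (-1, 1) := by rw [← kT, kk]
  have kR : κ (Ψ (1, swap 0 1)) = Ψ (1, swap 0 1) := by rw [hR, kφ]; congr 1; decide
  have b4 : ¬ IsConj (φ t0) (Ψ (1, swap 0 1 * swap 3 4)) := fun k => tr (cj (s := swap 0 1) (by decide) _) b1 (by
    refine k.trans ?_
    have := kc (Ψ ((1, swap 0 1) * (1, swap 3 4)))
    rwa [map_mul Ψ, map_mul, kR, kR', ← map_mul, ← map_mul] at this)
  have cm : ∀ a b, a * (1, swap 2 5) = (1, swap 2 5) * a → κ (Ψ a) = Ψ b →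
      κ (Ψ (1, swap 2 5)) * Ψ b = Ψ b * κ (Ψ (1, swap 2 5)) := fun a b k k' => by
    rw [← k', ← map_mul, ← map_mul, ← map_mul, ← map_mul, k]
  obtain ⟨⟨ε, w⟩, hw⟩ := rg _ (hT ▸ cm _ _ (by decide) kR')
  have w1 := cm _ _ (by decide) kR
  have w2 := cm _ _ (by decide) kT
  rw [← hw, ← map_mul, ← map_mul] at w1 w2
  have cw : IsConj (φ t0) (Ψ (ε, w)) := by
    rw [hw, ← hT]
    exact ((kc _).trans (kT ▸ Ψ.map_isConj (cj (by decide) _))).trans (kc _)
  have wk : κ (Ψ (ε, w)) = Ψ (1, swap 2 5) := by rw [hw, kk]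
  have key : κ (Ψ (1, swap 2 5)) = Ψ (1, swap 2 5) := by
    rcases Int.units_eq_one_or ε with rfl | rfl <;>
      rcases l8 w (congrArg Prod.snd (inj w1)) (congrArg Prod.snd (inj w2)) with
        rfl | rfl | rfl | rfl | rfl | rfl | rfl | rfl
    · rw [show ((1, 1) : ℤˣ × Perm (Fin 6)) = 1 from rfl, map_one, map_one, ← map_one Ψ] at wk
      exact absurd (inj wk) (by decide)
    · exact absurd (inj (kR.symm.trans wk)) (by decide)
    · exact absurd (inj (kR'.symm.trans wk)) (by decide)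
    · exact (b4 cw).elim
    · exact wk
    · exact (tr (cj (by decide) _) b4 cw).elim
    · exact (tr (cj (by decide) _) b4 cw).elim
    · exact (tr (cj (by decide) _) b2 cw).elim
    · exact absurd (inj (kT.symm.trans wk)) (by decide)
    · exact (tr (cj (by decide) _) b1 cw).elim
    · exact (b1 cw).elim
    · rw [show ((-1, swap 0 1 * swap 3 4) : ℤˣ × Perm (Fin 6)) = (-1, 1) * (1, swap 0 1) * (1, swap 3 4) by decide,
        map_mul, map_mul, map_mul, map_mul, kT, kR, kR', ← map_mul, ← map_mul] at wk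
      exact absurd (inj wk) (by decide)
    · exact (tr (cj (by decide) _) b1 cw).elim
    · rw [show ((-1, swap 0 1 * swap 2 5) : ℤˣ × Perm (Fin 6)) = (-1, 1) * (1, swap 0 1) * (1, swap 2 5) by decide,
        map_mul, map_mul, map_mul, map_mul, kT, kR, ← hw, ← map_mul, ← map_mul] at wk
      exact absurd (inj wk) (by decide)
    · exfalso
      let π : ℤˣ × Perm (Fin 6) := (1, swap 0 2 * swap 1 5)
      have cv : ∀ a b c d, π * a * π = b → κ (Ψ b) = Ψ c → π * c * π = d →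
          φ v0 * Ψ π * φ v0 * Ψ π * Ψ a = κ (Ψ d) * (φ v0 * Ψ π * φ v0 * Ψ π) := fun a b c d h1 h2 h3 => by
        have pp : Ψ π * Ψ π = 1 := by rw [← map_mul, show π * π = 1 by decide, map_one]
        have h4 : φ v0 * Ψ b = Ψ c * φ v0 := by rw [← h2, MulAut.conj_apply, inv_mul_cancel_right]
        have h5 : Ψ π * Ψ a = Ψ b * Ψ π := by rw [← h1, map_mul, map_mul, mul_assoc _ (Ψ π), pp, mul_one]
        have h6 : Ψ π * Ψ c = Ψ d * Ψ π := by rw [← h3, map_mul, map_mul, mul_assoc _ (Ψ π), pp, mul_one]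
        rw [MulAut.conj_apply]
        simp only [mul_assoc, inv_mul_cancel_left]
        rw [h5, ← mul_assoc (φ v0) (Ψ b), h4, mul_assoc, ← mul_assoc (Ψ π) (Ψ c), h6, mul_assoc]
      have c1 := cv (-1, 1) _ _ (1, swap 3 4) (by decide) kT (by decide)
      have c2 := cv (1, swap 2 5) _ _ (1, swap 2 5) (by decide) kR (by decide)
      rw [kR', hT] at c1
      obtain ⟨u, hu⟩ := rg _ c1
      rw [← hu, ← hw, ← map_mul, ← map_mul] at c2
      have := congrArg Prod.fst (inj c2)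
      simp at this
    · exact (tr (cj (by decide) _) b3 cw).elim
  have b5 : ¬ IsConj (φ t0) (Ψ (-1, swap 0 1 * swap 2 5)) := fun k =>
    tr (cj (s := swap 0 1 * swap 3 4 * swap 2 5) (by decide) _) b2 (by
      refine k.trans ?_
      have := (kc (Ψ ((1, swap 0 1) * (1, swap 3 4) * (1, swap 2 5)))).symm
      rw [map_mul Ψ, map_mul Ψ, map_mul, map_mul, kR, kR', key, ← map_mul, ← map_mul, ← map_mul, ← map_mul] at this
      convert this using 2 <;> decide)
  by_contra s1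
  have cs : IsConj (φ t0) (Ψ (-1, s)) := isConj_iff.2 ⟨g, e.trans (m1 s).symm⟩
  have s2 : s * s = 1 := by
    have : Ψ ((-1, s) * (-1, s)) = Ψ 1 := by rw [map_mul, m1, ← e, conj_mul, tt, map_one, mul_one, mul_inv_cancel]
    exact congrArg Prod.snd (inj this)
  obtain ⟨n, -, hn⟩ := ct2 s2 s1
  have := s.support.card_le_univ
  rw [Fintype.card_fin] at this
  obtain rfl | rfl | rfl : n = 0 ∨ n = 1 ∨ n = 2 := by omega
  · exact tr (cj ⟨s2, s1, by decide, by decide, hn.trans (by decide)⟩ _) b1 cs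
  · exact tr (cj ⟨s2, s1, by decide, by decide, hn.trans (by decide)⟩ _) b5 cs
  · exact tr (cj ⟨s2, s1, by decide, by decide, hn.trans (by decide)⟩ _) b3 cs
end H28.Fu
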