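import Cfsg.Agent.H28.Fu
/-! The second fusion pattern does not occur when `C(t) = ⟨t⟩ × Sym(6)`. -/
set_option maxRecDepth 100000
open Subgroup Equiv H3S
namespace H28.Fu
variable {G : Type*} [Group G] [Finite G] {φ : P →* G} {σ t : G} {ψ : Perm (Fin 6) →* G}

theorem b2 (h : Hy φ σ) (hc : σ * φ r0 * σ = φ (r1 * t0)) (p : Ps φ σ ψ) : False := by
  have tt : φ t0 * φ t0 = 1 := by rw [← map_mul, show t0 * t0 = 1 by decide, map_one]
  have ct : ∀ s, ψ s * φ t0 = φ t0 * ψ s := fun s => (p.ct _).2 ⟨s, .inl rfl⟩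
  let Ψ : ℤˣ × Perm (Fin 6) →* G := MonoidHom.mk' (fun x => (if x.1 = 1 then 1 else φ t0) * ψ x.2) (by
    rintro ⟨a, x⟩ ⟨b, y⟩
    rcases Int.units_eq_one_or a with rfl | rfl <;> rcases Int.units_eq_one_or b with rfl | rfl <;>
      simp [mul_assoc, ← mul_assoc (ψ x), ct, ← mul_assoc (φ t0) (φ t0), tt])
  have p1 : ∀ s, Ψ (1, s) = ψ s := fun s => by simp [Ψ]
  have m1 : ∀ s, Ψ (-1, s) = φ t0 * ψ s := fun s => by simp [Ψ]
  have inj : Function.Injective Ψ := (injective_iff_map_eq_one _).2 fun ⟨a, x⟩ k => by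
    rcases Int.units_eq_one_or a with rfl | rfl
    · rw [p1, map_eq_one_iff _ p.inj] at k; rw [k]; rfl
    · rw [m1, mul_eq_one_iff_eq_inv, ← map_inv] at k; exact (p.nt _ k.symm).elim
  have rg : ∀ g, g * φ t0 = φ t0 * g → g ∈ Ψ.range := fun g k => by
    obtain ⟨s, rfl | rfl⟩ := (p.ct g).1 k
    exacts [⟨_, p1 s⟩, ⟨_, m1 s⟩]
  have hT : Ψ (-1, 1) = φ t0 := by rw [m1, map_one, mul_one]
  have hR : Ψ (1, swap 0 1) = φ r0 := (p1 _).trans p.r
  have hR' : Ψ (1, swap 3 4) = φ (r1 * t0) := (p1 _).trans (p.r'.trans hc)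
  have hy : Ψ y6 = φ z0 * φ z1 := by rw [y6, p1, map_mul, p.z, p.z']
  have h9 : 9 ∣ Nat.card (centralizer ({φ t0} : Set G)) := by
    refine Dvd.dvd.trans ?_ (card_dvd_of_le (H := ψ.range) ?_)
    · rw [← Nat.card_congr (MonoidHom.ofInjective p.inj).toEquiv, Nat.card_perm, Nat.card_fin]; decide
    · rintro _ ⟨s, rfl⟩; exact mem_centralizer_singleton_iff.2 (ct s)
  have cy : ∀ g, g * Ψ y6 = Ψ y6 * g → g ∈ Ψ.range := fun g k => by
    have : (centralizer {y6}).map Ψ = centralizer {Ψ y6} := eq_of_le_of_card_ge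
      (by rintro _ ⟨x, hx, rfl⟩
          exact mem_centralizer_singleton_iff.2 (by rw [← map_mul, mem_centralizer_singleton_iff.1 hx, map_mul]))
      (by rw [hy, h.cy, card_map_of_injective inj, ← n2]
          exact le_of_eq (Nat.card_congr (Equiv.subtypeEquivRight fun x => by
            rw [and_self, mem_centralizer_singleton_iff])))
    exact map_le_range _ _ (this.ge (mem_centralizer_singleton_iff.2 k))
  have tr : ∀ {a b}, IsConj a b → ¬ IsConj (φ t0) (Ψ b) → ¬ IsConj (φ t0) (Ψ a) := fun k h1 h2 =>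
    h1 (h2.trans (Ψ.map_isConj k))
  have b1 : ¬ IsConj (φ t0) (Ψ (1, swap 3 4)) := by
    rw [hR', show r1 * t0 = t0 * r1 by decide]
    exact bad h.inj h.n27 h9 _ z0 (fun g k => h.nz g (by rw [k, mul_inv_cancel_right]; exact mem_zpowers _))
      (by decide) n1
  have b2 := bad inj h.n27 h9 (1, e6) y6 cy (by decide) n3
  have b3 := bad inj h.n27 h9 (-1, e6) y6 cy (by decide) n4
  let κ := MulAut.conj (φ v0)
  have kc : ∀ x, IsConj x (κ x) := fun x => isConj_iff.2 ⟨_, rfl⟩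
  have kφ : ∀ a, κ (φ a) = φ (v0 * a * v0⁻¹) := fun a => by rw [map_mul, map_mul, map_inv]; rfl
  have kk : ∀ x, κ (κ x) = x := fun x => by
    rw [← MulAut.mul_apply, ← map_mul, ← map_mul, show v0 * v0 = 1 by decide, map_one, map_one]; rfl
  have kT : κ (Ψ (-1, 1)) = Ψ (-1, swap 3 4) := by rw [hT, m1, ← p1, hR', kφ, ← map_mul]; congr 1; decide
  have kR' : κ (Ψ (1, swap 3 4)) = Ψ (1, swap 3 4) := by rw [hR', kφ]; congr 1; decide
  have kR : κ (Ψ (1, swap 0 1)) = Ψ (1, swap 0 1) := by rw [hR, kφ]; congr 1; decide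
  have km : ∀ {a b c d}, κ (Ψ a) = Ψ b → κ (Ψ c) = Ψ d → κ (Ψ (a * c)) = Ψ (b * d) := fun h1 h2 => by
    rw [map_mul, map_mul, h1, h2, map_mul]
  have gd : ∀ {a b}, κ (Ψ a) = Ψ b → IsConj (φ t0) (Ψ a) → IsConj (φ t0) (Ψ b) := fun h1 h2 => h2.trans (h1 ▸ kc _)
  have tg : ∀ {a b}, IsConj a b → IsConj (φ t0) (Ψ a) → IsConj (φ t0) (Ψ b) := fun k h2 => h2.trans (Ψ.map_isConj k)
  have g0 : IsConj (φ t0) (Ψ (-1, 1)) := hT ▸ IsConj.refl _
  have g1 := gd kT g0
  have g2 : IsConj (φ t0) (Ψ (-1, swap 3 4 * swap 0 1)) := gd (km kT kR) (tg (cj (s' := 1 * swap 0 1) (by decide) _) g1)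
  have cm : ∀ a b, a * (1, swap 2 5) = (1, swap 2 5) * a → κ (Ψ a) = Ψ b →
      κ (Ψ (1, swap 2 5)) * Ψ b = Ψ b * κ (Ψ (1, swap 2 5)) := fun a b k k' => by
    rw [← k', ← map_mul, ← map_mul, ← map_mul, ← map_mul, k]
  have kT' : κ (Ψ (-1, swap 3 4)) = Ψ (-1, 1) := by rw [← kT, kk]
  obtain ⟨⟨ε, w⟩, hw⟩ := rg _ (hT ▸ cm _ _ (by decide) kT')
  have w1 := cm _ _ (by decide) kR
  have w2 := cm _ _ (by decide) kR'
  rw [← hw, ← map_mul, ← map_mul] at w1 w2
  have nw : ¬ IsConj (φ t0) (Ψ (ε, w)) := fun k =>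
    tr (cj (s := swap 2 5) (by decide) _) b1 (k.trans (hw ▸ (kc _).symm))
  have wk : κ (Ψ (ε, w)) = Ψ (1, swap 2 5) := by rw [hw, kk]
  have a1 := gd (km kT hw.symm) (tg (cj (s' := 1 * swap 2 5) (by decide) _) g1)
  have a2 := gd (km (km kT kR) hw.symm) (tg (cj (s' := 1 * swap 0 1 * swap 2 5) (by decide) _) g2)
  have a3 := gd (km kT' hw.symm) (tg (cj (s' := swap 3 4 * swap 2 5) (by decide) _) g2)
  rcases Int.units_eq_one_or ε with rfl | rfl <;>
    rcases l8 w (congrArg Prod.snd (inj w1)) (congrArg Prod.snd (inj w2)) with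
      rfl | rfl | rfl | rfl | rfl | rfl | rfl | rfl
  · rw [show ((1, 1) : ℤˣ × Perm (Fin 6)) = 1 from rfl, map_one, map_one, ← map_one Ψ] at wk
    exact absurd (inj wk) (by decide)
  · exact absurd (inj (kR.symm.trans wk)) (by decide)
  · exact absurd (inj (kR'.symm.trans wk)) (by decide)
  · exact absurd (inj ((km kR kR').symm.trans wk)) (by decide)
  · exact tr (cj (by decide) _) b3 a2
  · exact tr (cj (by decide) _) b3 a1
  · let π : ℤˣ × Perm (Fin 6) := (1, swap 0 2 * swap 1 5)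
    have cv : ∀ a b c d, π * a * π = b → κ (Ψ b) = Ψ c → π * c * π = d →
        φ v0 * Ψ π * φ v0 * Ψ π * Ψ a = κ (Ψ d) * (φ v0 * Ψ π * φ v0 * Ψ π) := fun a b c d h1 h2 h3 => by
      have pp : Ψ π * Ψ π = 1 := by rw [← map_mul, show π * π = 1 by decide, map_one]
      have h4 : φ v0 * Ψ b = Ψ c * φ v0 := by rw [← h2, MulAut.conj_apply, inv_mul_cancel_right]
      have h5 : Ψ π * Ψ a = Ψ b * Ψ π := by rw [← h1, map_mul, map_mul, mul_assoc _ (Ψ π), pp, mul_one]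
      have h6 : Ψ π * Ψ c = Ψ d * Ψ π := by rw [← h3, map_mul, map_mul, mul_assoc _ (Ψ π), pp, mul_one]
      rw [MulAut.conj_apply]
      simp only [mul_assoc, inv_mul_cancel_left]
      rw [h5, ← mul_assoc (φ v0) (Ψ b), h4, mul_assoc, ← mul_assoc (Ψ π) (Ψ c), h6, mul_assoc]
    have c1 := cv (-1, 1) _ _ (-1, swap 3 4) (by decide) kT (by decide)
    have c2 := cv (1, swap 2 5) _ _ (1, swap 2 5) (by decide) kR (by decide)
    rw [kT', hT] at c1
    obtain ⟨u, hu⟩ := rg _ c1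
    rw [← hu, ← hw, ← map_mul, ← map_mul] at c2
    have := congrArg (fun x => Perm.sign x.2) (inj c2)
    simp at this
  · exact tr (cj (by decide) _) b3 a3
  · exact nw g0
  · exact nw (tg (cj (by decide) _) g1)
  · exact nw g1
  · exact nw (tg (cj (by decide) _) g2)
  · exact nw (tg (cj (by decide) _) g1)
  · exact nw (tg (cj (by decide) _) g2)
  · exact nw (tg (cj (by decide) _) g2)
  · exact tr (cj (by decide) _) b2 a3
end H28.Fu
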